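import Cfsg.Agent.SylowSquares.Basic
import Cfsg.Agent.S2326
import Cfsg.Agent.Chevalley.All
import Cfsg.Agent.Chevalley.Elements

/-!
Chevalley groups in characteristic two: the positive unipotent subgroup is generated by involutions.
-/

set_option autoImplicit false

namespace CfsgLib.SylowSquares

open Cfsg Cfsg.Lie

theorem chev_good {F : Type*} [Field F] [Fintype F] [CharP F 2] (D : ChevalleyDatum)
    (hD : D ∈ [chevG2, chevB2, chevD4, chevF4, chevE6, chevE7, chevE8]) : Good (D.group F) := by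
  haveI : Fact (Nat.Prime 2) := ⟨Nat.prime_two⟩
  obtain ⟨S⟩ := CfsgLib.Chevalley.sys_of_mem hD
  obtain ⟨P, hP⟩ := Cfsg.Agent.S2326.result (F := F) 2 D hD
  have hle : D.posUnipotent F ≤ D.group F := by
    rw [S.posUnipotent_eq, Subgroup.closure_le]
    rintro _ ⟨r, hr, t, rfl⟩
    exact S.xG_mem F hr.2 t
  have hU : SqC (D.posUnipotent F) := sqC_of_involutions (S.posUnipotent_eq F).symm (by
    rintro _ ⟨r, -, t, rfl⟩
    rw [S.xG_add, CharTwo.add_self_eq_zero, S.xG_zero])
  refine Good.of_sqC (P : Subgroup ↥(D.group F)) P.isPGroup' P.not_dvd_index ?_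
  rw [hP]
  exact hU.subgroupOf hle

end CfsgLib.SylowSquares
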