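import Cfsg.Agent.SylowSquares.Twisted

/-!
The Ree groups of type `F₄`: squares of the fixed elements of a class of type `B₂` are commutators.
-/

set_option autoImplicit false

namespace CfsgLib.SylowSquares

open Cfsg.Lie CfsgLib.Chevalley CfsgLib.TwistedLie
open Mod2 (ew_cons ew_nil eq2B eq2_sound)

open scoped commutatorElement

local notation "S" => sysF4

section

variable {K : Type*} [Field K] [CharP K 2]

theorem f4_commute {r r' : ℕ}
    (h : eq2B chevF4 [(r, [(1, 1, 0)]), (r', [(1, 0, 1)])] [(r', [(1, 0, 1)]), (r, [(1, 1, 0)])] = true)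
    (t s : K) : Commute (Sys.xG S K r t) (Sys.xG S K r' s) := by
  simpa [ew_cons, ew_nil, pev, Commute, SemiconjBy] using eq2_sound S h t s

local notation "aa" => Sys.xG S K 27
local notation "bb" => Sys.xG S K 25
local notation "cc" => Sys.xG S K 28
local notation "dd" => Sys.xG S K 30

theorem central_pair (C D : K) : ∀ x ∈ [27, 25, 28, 30], ∀ t : K,
    Commute (cc C * dd D) (Sys.xG S K x t) := by
  intro x hx t
  simp only [List.mem_cons, List.not_mem_nil, or_false] at hx
  rcases hx with rfl | rfl | rfl | rfl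
  · exact (f4_commute (by decide +kernel) C t).mul_left (f4_commute (by decide +kernel) D t)
  · exact (f4_commute (by decide +kernel) C t).mul_left (f4_commute (by decide +kernel) D t)
  · exact (f4_commute (by decide +kernel) C t).mul_left (f4_commute (by decide +kernel) D t)
  · exact (f4_commute (by decide +kernel) C t).mul_left (f4_commute (by decide +kernel) D t)

theorem ab_mul (A t B s : K) :
    aa A * bb t * (aa B * bb s) = aa (A + B) * bb (t + s) * (cc (t * B) * dd (t * B ^ 2)) := by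
  have h1 := TwistedLie.F4.quad_swap (K := K) TwistedLie.F4.quadP t B
  have h2 : Commute (cc (t * B) * dd (t * B ^ 2)) (bb s) := central_pair _ _ 25 (by simp) s
  calc aa A * bb t * (aa B * bb s) = aa A * (bb t * aa B) * bb s := by simp only [mul_assoc]
    _ = aa A * (aa B * bb t * cc (t * B) * dd (t * B ^ 2)) * bb s := by rw [h1]
    _ = aa A * aa B * bb t * ((cc (t * B) * dd (t * B ^ 2)) * bb s) := by simp only [mul_assoc]
    _ = aa A * aa B * bb t * (bb s * (cc (t * B) * dd (t * B ^ 2))) := by rw [h2.eq]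
    _ = (aa A * aa B) * (bb t * bb s) * (cc (t * B) * dd (t * B ^ 2)) := by simp only [mul_assoc]
    _ = _ := by rw [Sys.xG_add, Sys.xG_add]

theorem z_mul (C D C' D' : K) : cc C * dd D * (cc C' * dd D') = cc (C + C') * dd (D + D') := by
  have h : Commute (dd D) (cc C') := f4_commute (by decide +kernel) D C'
  calc cc C * dd D * (cc C' * dd D') = cc C * (dd D * cc C') * dd D' := by simp only [mul_assoc]
    _ = cc C * (cc C' * dd D) * dd D' := by rw [h.eq]
    _ = (cc C * cc C') * (dd D * dd D') := by simp only [mul_assoc]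
    _ = _ := by rw [Sys.xG_add, Sys.xG_add]

theorem ab_z (A t C D B s C' D' : K) :
    aa A * bb t * (cc C * dd D) * (aa B * bb s * (cc C' * dd D')) =
      aa (A + B) * bb (t + s) * (cc (t * B + (C + C')) * dd (t * B ^ 2 + (D + D'))) := by
  have h : Commute (cc C * dd D) (aa B * bb s) :=
    (central_pair C D 27 (by simp) B).mul_right (central_pair C D 25 (by simp) s)
  calc _ = aa A * bb t * ((cc C * dd D) * (aa B * bb s)) * (cc C' * dd D') := by simp only [mul_assoc]
    _ = aa A * bb t * ((aa B * bb s) * (cc C * dd D)) * (cc C' * dd D') := by rw [h.eq]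
    _ = (aa A * bb t * (aa B * bb s)) * (cc C * dd D * (cc C' * dd D')) := by simp only [mul_assoc]
    _ = _ := by rw [ab_mul, z_mul, mul_assoc _ (cc (t * B) * dd (t * B ^ 2)), z_mul]

theorem z_ab_z (C D A s C' D' : K) :
    cc C * dd D * (aa A * bb s * (cc C' * dd D')) = aa A * bb s * (cc (C + C') * dd (D + D')) := by
  have h : Commute (cc C * dd D) (aa A * bb s) :=
    (central_pair C D 27 (by simp) A).mul_right (central_pair C D 25 (by simp) s)
  rw [← mul_assoc, h.eq, mul_assoc, z_mul]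

end

variable {K : Type*} [Field K] [Fintype K] {m : ℕ} (hK : Fintype.card K = 2 ^ (2 * m + 1))
include hK

local notation "θ" => 2 ^ m

theorem f4_exists_lambda (hm : 1 ≤ m) : ∃ l : K, l ^ θ + l ≠ 0 := by
  classical
  haveI := TwistedLie.F4.charTwo hK
  obtain ⟨l, hl⟩ : ∃ l : K, l ∉ ({0, 1} : Finset K) := by
    by_contra hall
    push Not at hall
    have h := (Finset.card_le_card (fun c _ => hall c : Finset.univ ⊆ ({0, 1} : Finset K))).trans
      Finset.card_le_two
    rw [Finset.card_univ, hK] at h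
    have : 2 ^ 2 ≤ 2 ^ (2 * m + 1) := Nat.pow_le_pow_right two_pos (by omega)
    omega
  simp only [Finset.mem_insert, Finset.mem_singleton, not_or] at hl
  refine ⟨l, fun h0 => hl.2 ?_⟩
  have h1 : l ^ θ = l := by rwa [CharTwo.add_eq_zero] at h0
  have h2 : l ^ (2 * θ * θ) = l ^ 2 := by rw [pow_mul, mul_comm 2 θ, pow_mul, h1, ← pow_mul, mul_comm 2 θ, pow_mul, h1]
  rw [TwistedLie.F4.sq_pow hK, pow_two] at h2
  exact (mul_eq_left₀ hl.1).mp h2.symm

theorem f4_pow_surj (z : K) : ∃ r : K, r ^ (θ + 1) = z := by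
  classical
  have hcop : (2 ^ (2 * m + 1) - 1).Coprime (θ + 1) := by
    have h2 : 2 ^ (2 * m + 1) - 1 = (θ + 1) * (2 * θ - 2) + 1 := by
      have e : 2 ^ (2 * m + 1) = 2 * θ * θ := by ring
      rw [e]
      obtain ⟨k, hk⟩ : ∃ k, θ = k + 1 :=
        Nat.exists_eq_succ_of_ne_zero (pow_ne_zero m two_ne_zero)
      rw [hk, show 2 * (k + 1) - 2 = 2 * k by omega]
      have : 2 * (k + 1) * (k + 1) = (k + 1 + 1) * (2 * k) + 2 := by ring
      rw [this]
      omega
    rw [h2, Nat.coprime_comm, Nat.coprime_mul_left_add_right]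
    exact Nat.coprime_one_right _
  rcases eq_or_ne z 0 with rfl | hz
  · exact ⟨0, zero_pow (Nat.succ_ne_zero _)⟩
  have hc : (Nat.card Kˣ).Coprime (θ + 1) := by
    rw [Nat.card_eq_fintype_card, Fintype.card_units, hK]; exact hcop
  obtain ⟨r, hr⟩ := (powCoprime hc).surjective (Units.mk0 z hz)
  exact ⟨(r : K), congrArg Units.val hr⟩

theorem f4_XX0_sqC (hm : 1 ≤ m) : SqC (TwistedLie.F4.XX hK 0) := by
  haveI := TwistedLie.F4.charTwo hK
  intro g hg
  obtain ⟨t, u, rfl⟩ := (TwistedLie.F4.mem_XX0 hK).mp hg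
  obtain ⟨l, hl⟩ := f4_exists_lambda hK hm
  obtain ⟨r, hr⟩ := f4_pow_surj hK (t ^ (θ + 1) / (l ^ θ + l))
  have hr' : r ^ (θ + 1) * (l ^ θ + l) = t ^ (θ + 1) := by rw [hr, div_mul_cancel₀ _ hl]
  set x := TwistedLie.F4.quadEl m 27 25 28 30 t u with hx
  set g' := TwistedLie.F4.quadEl m 27 25 28 30 r 0 with hg'
  set h' := TwistedLie.F4.quadEl m 27 25 28 30 (l * r) 0 with hh'
  have hg'm : g' ∈ TwistedLie.F4.XX hK 0 := (TwistedLie.F4.mem_XX0 hK).mpr ⟨_, _, rfl⟩
  have hh'm : h' ∈ TwistedLie.F4.XX hK 0 := (TwistedLie.F4.mem_XX0 hK).mpr ⟨_, _, rfl⟩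
  have hq : ∀ t u : K, TwistedLie.F4.quadEl m 27 25 28 30 t u =
      Sys.xG S K 27 (t ^ θ) * Sys.xG S K 25 t *
        (Sys.xG S K 28 (t ^ (θ + 1) + u) * Sys.xG S K 30 (u ^ (2 * θ))) := fun t u => by
    rw [TwistedLie.F4.quadEl, mul_assoc]
  have hD : r * ((l * r) ^ θ) ^ 2 + l * r * (r ^ θ) ^ 2 = t * (t ^ θ) ^ 2 := by
    have h0 := congrArg (fun z : K => z ^ (2 * θ)) hr'
    simp only [mul_pow, TwistedLie.F4.add_theta hK] at h0
    rw [TwistedLie.F4.theta_two hK l] at h0
    have h1 : ∀ y : K, (y ^ (θ + 1)) ^ (2 * θ) = y * (y ^ θ) ^ 2 := fun y => by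
      rw [pow_succ y θ, mul_pow, TwistedLie.F4.theta_two hK, mul_comm 2 θ, pow_mul]
    rw [h1, h1] at h0
    linear_combination h0
  have key : g' * h' = x * x * (h' * g') := by
    simp only [hx, hg', hh', hq, ab_z, CharTwo.add_self_eq_zero, Sys.xG_zero, one_mul, add_zero]
    rw [z_ab_z]
    congr 1
    · rw [add_comm (r ^ θ), add_comm r]
    · congr 1
      · congr 1
        have h1 : t * t ^ θ = t ^ (θ + 1) := (pow_succ' t θ).symm
        rw [h1, ← hr']
        simp only [pow_succ, mul_pow]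
        ring_nf
        linear_combination -(r * r ^ θ * l) * (CharTwo.two_eq_zero (R := K))
      · congr 1
        rw [← hD, add_assoc, CharTwo.add_self_eq_zero, add_zero]
  have h5 : x * x = ⁅g', h'⁆ := by
    rw [commutatorElement_def, mul_assoc (g' * h'), ← mul_inv_rev]
    exact eq_mul_inv_of_mul_eq key.symm
  rw [h5]
  exact Subgroup.commutator_mem_commutator hg'm hh'm

theorem f4_XX1_sqC : SqC (TwistedLie.F4.XX hK 1) := by
  haveI := TwistedLie.F4.charTwo hK
  intro g hg
  obtain ⟨t, rfl⟩ := (TwistedLie.F4.mem_XX1 hK).mp hg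
  have h : Commute (Sys.xG S K 24 t) (Sys.xG S K 33 (t ^ θ)) :=
    orth_commute S K (show orthB chevF4 24 33 = true by decide +kernel) _ _
  rw [TwistedLie.F4.pairEl, mul_assoc, ← mul_assoc (Sys.xG S K 24 t), h.eq, mul_assoc,
    Sys.xG_add, CharTwo.add_self_eq_zero, Sys.xG_zero, mul_one, Sys.xG_add, CharTwo.add_self_eq_zero,
    Sys.xG_zero]
  exact one_mem _

theorem f4_good (hm : 1 ≤ m) : Good (Cfsg.Lie.twistedF4 K (2 ^ m)) := by
  haveI := TwistedLie.F4.charTwo hK
  set Q := 2 ^ (2 * m + 1) with hQ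
  have he : Even Q := hQ ▸ Nat.even_pow.mpr ⟨even_two, by omega⟩
  have h0 : 0 < Q := hQ ▸ pow_pos two_pos _
  refine twisted_good (TwistedLie.F4.tw hK) (Fin.forall_fin_two.mpr ⟨f4_XX0_sqC hK hm, f4_XX1_sqC hK⟩)
    (L₀ := TwistedLie.F4.longWord) (fun s hs => ?_) (e := (2 * m + 1) * 12) (d := 1)
    (B := (Q - 1) * ((Q ^ 3 + 1) * ((Q ^ 4 - 1) * (Q ^ 6 + 1)))) ?_ ?_ ?_
  · rw [(TwistedLie.F4.tw hK).wW_val (TwistedLie.F4.hbl hK)]
    exact (by decide +kernel : ∀ r < 48, 24 ≤ r →
      wlW chevF4 TwistedLie.F4.blkN TwistedLie.F4.longWord r < 24) _ s.isLt hs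
  · rw [TwistedLie.F4.card_U hK, pow_mul]
  · exact not_dvd_mul_two (pow_one Q ▸ not_two_dvd_sub he h0 one_ne_zero)
      (not_dvd_mul_two (not_two_dvd_add he (by omega)) (not_dvd_mul_two
        (not_two_dvd_sub he h0 (by omega)) (not_two_dvd_add he (by omega))))
  · rw [one_mul, TwistedLie.F4.card_group hK, pow_mul]
    simp only [mul_assoc]
    rfl

end CfsgLib.SylowSquares
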