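import Cfsg.Agent.SylowSquares.Classical
import Cfsg.Agent.SylowSquares.Chev
import Cfsg.Agent.SylowSquares.TwistedF4
import Cfsg.Agent.SylowSquares.Suzuki
import Cfsg.Prelude.Def_LieTypeChar
import Cfsg.Agent.Eq.Def_LieTypeChar

/-!
In a group of Lie type in characteristic two the squares of a Sylow 2-subgroup lie in its derived
subgroup.
-/

set_option autoImplicit false

open Cfsg

namespace CfsgLib.SylowSquares

universe u

theorem lieType_good {G : Type u} [Group G] (hG : IsLieTypeChar 2 G) : Good G := by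
  rcases hG with ⟨F, _, _, _, n, hn, -, ⟨e⟩⟩ | ⟨F, _, _, _, m, hm, -, ⟨e⟩⟩ |
    ⟨F, _, _, _, n, q, hFq, hn, -, ⟨e⟩⟩ | ⟨F, _, _, _, m, hm, hodd, -⟩ | ⟨F, _, _, _, m, hm, ⟨e⟩⟩ |
    ⟨F, _, _, _, m, a, b, hm, hab, ⟨e⟩⟩ | ⟨F, _, _, _, hcases⟩ | ⟨K, _, _, _, q, hq, hcases⟩ |
    ⟨-, F, _, _, m, hm, hF, ⟨e⟩⟩ | ⟨-, F, _, _, m, hm, hF, ⟨e⟩⟩ | ⟨h, -⟩
  · exact (psl_good (F := F) n).of_mulEquiv e
  · exact (psp_good (F := F) m).of_mulEquiv e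
  · exact (psu_good (F := F) n q hFq).of_mulEquiv e
  · exfalso
    obtain ⟨n, -, hn⟩ := FiniteField.card F 2
    rw [hn] at hodd
    exact (Nat.not_odd_iff_even.mpr (Nat.even_pow.mpr ⟨even_two, n.ne_zero⟩)) hodd
  · exact (plus_good (F := F) (m := m) (by omega)).of_mulEquiv e
  · exact (minus_good (F := F) (m := m - 1) (by omega) a b hab).of_mulEquiv e
  · rcases hcases with ⟨-, ⟨e⟩⟩ | ⟨⟨e⟩⟩ | ⟨⟨e⟩⟩ | ⟨⟨e⟩⟩ | ⟨⟨e⟩⟩ <;>
      exact (chev_good (F := F) _ (by simp)).of_mulEquiv e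
  · rcases hcases with ⟨hK, ⟨e⟩⟩ | ⟨hK, ⟨e⟩⟩
    · exact (e6_good hq hK).of_mulEquiv e
    · exact (d4_good hq hK).of_mulEquiv e
  · exact (suzuki_good hm hF).of_mulEquiv e
  · exact (f4_good hF hm).of_mulEquiv e
  · exact absurd h (by norm_num)

end CfsgLib.SylowSquares
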