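import Cfsg.Agent.SylowSquares.Polar
import Cfsg.Agent.Classical.PolarCycle.OrthStd
import Cfsg.Agent.Classical.PolarCycle.Unitary
import Cfsg.Agent.Fus.LinearSimple
import Cfsg.Prelude.Def_Classical
import Cfsg.Agent.Eq.Def_Classical

/-!
Classical groups in characteristic two: in a Sylow 2-subgroup every square is a product of commutators.
-/

set_option autoImplicit false

namespace CfsgLib.SylowSquares

open Matrix CfsgLib.LinAlg.Witt CfsgLib.OrthGeo CfsgLib.PolarCycle Cfsg.Geo Module

variable {F : Type*} [Field F]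

theorem psl_good [Fintype F] [CharP F 2] (n : ℕ) :
    Good (Matrix.ProjectiveSpecialLinearGroup (Fin n) F) := by
  classical
  haveI : Finite (Matrix.SpecialLinearGroup (Fin n) F) := inferInstance
  let U : Subgroup (Matrix.SpecialLinearGroup (Fin n) F) := Fus.LinearSimple.uniSL
  let S : Set (Matrix.SpecialLinearGroup (Fin n) F) :=
    {g | ∃ (k l : Fin n) (hkl : k < l) (a : F),
      Matrix.SpecialLinearGroup.transvection hkl.ne a = g}
  have hgen : Subgroup.closure S = U := by
    refine le_antisymm ((Subgroup.closure_le _).2 ?_)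
      (Fus.LinearSimple.uniSL_le fun k l hkl a => Subgroup.subset_closure ⟨k, l, hkl, a, rfl⟩)
    rintro _ ⟨k, l, hkl, a, rfl⟩
    exact Fus.LinearSimple.transvection_mem_uniSL hkl a
  have hU : SqC U := sqC_of_involutions hgen (by
    rintro _ ⟨k, l, hkl, a, rfl⟩
    rw [← Matrix.SpecialLinearGroup.transvection_add, CharTwo.add_self_eq_zero,
      Matrix.SpecialLinearGroup.transvection_coeff_zero])
  exact Good.of_sqC_surjective U (Fus.LinearSimple.isPGroup_uniSL 2)
    (Fus.LinearSimple.uniSylow (K := F) (n := n) 2).not_dvd_index hU (QuotientGroup.mk'_surjective _)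

theorem psp_good [Finite F] [CharP F 2] (m : ℕ) : Good (Cfsg.PSp m F) := by
  refine (sympPolar m F).good_of_radical (fun _ v => ?_) ⊤ le_top
    ((sympPolar m F).midTrivial_of_span 2 _ 0 fun x => by
      rw [sympPolar_mid]; exact Submodule.zero_mem _)
    ((sympPolar m F).famFixed_of_ker _ one_ne_zero rfl)
    (f := (QuotientGroup.mk' _).comp (sympEquiv.trans Subgroup.topEquiv.symm).symm.toMonoidHom) ?_
  · exact (CfsgLib.SympFormStd.isSymplecticForm m F).alternating v
  · exact (QuotientGroup.mk'_surjective _).comp (MulEquiv.surjective _)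

theorem psu_good [Fintype F] [CharP F 2] (n q : ℕ) (hF : Fintype.card F = q ^ 2) :
    Good (Cfsg.PSU n F q) := by
  classical
  obtain ⟨σ, hσ, hf⟩ := exists_isUnitaryForm_hermForm (n := n) hF
  have hσ' : (σ : F →+* F) ≠ RingHom.id F := fun h =>
    hf.ne_refl (RingEquiv.ext (RingHom.congr_fun h))
  obtain ⟨c, hc⟩ := CfsgLib.LinAlg.Witt.exists_norm_eq (σ : F →+* F) hσ' hf.involutive (r := -1) (by simp)
  obtain ⟨x, hx⟩ : ∃ x, σ x ≠ x := by
    by_contra h; push Not at h; exact hf.ne_refl (RingEquiv.ext h)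
  have hx0 : x ≠ 0 := fun h => hx (by simp [h])
  have hc' : σ (c * (σ x / x)) * (c * (σ x / x)) = -1 := by
    rw [map_mul, map_div₀, hf.involutive, mul_mul_mul_comm]
    change σ c * c = -1 at hc
    rw [hc]
    have : σ x ≠ 0 := by simpa using hx0
    field_simp
  have hne : c * (σ x / x) ≠ c := by
    intro h
    have hc0 : c ≠ 0 := fun h0 => by simp [h0] at hc
    rw [mul_eq_left₀ hc0, div_eq_one_iff_eq hx0] at h
    exact hx h
  let P := unitaryPolar hσ hf c (c * (σ x / x)) hc hc' hne
  let N : Subgroup P.isoGrp := ((LinearEquiv.det).comp P.isoGrp.subtype).ker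
  haveI : N.Normal := MonoidHom.normal_ker _
  have hN : ∀ g : P.isoGrp, g ∈ N ↔
      LinearMap.det ((g : (Fin n → F) ≃ₗ[F] (Fin n → F)) : (Fin n → F) →ₗ[F] (Fin n → F)) = 1 := by
    intro g
    rw [MonoidHom.mem_ker, Units.ext_iff, MonoidHom.comp_apply, LinearEquiv.coe_det]
    rfl
  have hUN : P.U ≤ N := by
    intro u hu
    obtain ⟨k, hk⟩ := P.U_isPGroup 2 ⟨u, hu⟩
    rw [hN]
    have h1 : ((LinearEquiv.det).comp P.isoGrp.subtype u) ^ 2 ^ k = 1 := by
      rw [← map_pow, show u ^ 2 ^ k = 1 from congrArg Subtype.val hk, map_one]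
    have h2 := congrArg Units.val h1
    rw [Units.val_pow_eq_pow_val, Units.val_one, MonoidHom.comp_apply, LinearEquiv.coe_det] at h2
    haveI : ExpChar F 2 := ExpChar.prime Nat.prime_two
    refine sub_eq_zero.1 (eq_zero_of_pow_eq_zero (n := 2 ^ k) ?_)
    rw [sub_pow_char_pow, one_pow]
    exact sub_eq_zero.2 h2
  have hB : ∀ (a b : Fin n → F), sesqOfFun hf a b = ∑ k, b k * σ (a k) := fun a b => by
    rw [sesqOfFun_apply, Cfsg.hermForm]
    exact Finset.sum_congr rfl fun k _ => by rw [hσ]
  let z : Fin n → F := fun j => if (j : ℕ) = 2 * (n / 2) then 1 else 0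
  have hmid : P.MidTrivial 2 N := by
    refine P.midTrivial_of_span 2 N z fun y => Submodule.mem_span_singleton.2 ?_
    set w := P.mid y with hw
    have hz : ∀ j : Fin n, (j : ℕ) ≠ 2 * (n / 2) → w j = 0 := by
      intro j hj
      let i : Fin (n / 2) := ⟨(j : ℕ) / 2, by omega⟩
      have hs : ∀ d, sesqOfFun hf (uVec n d i) w =
          w ⟨2 * (i : ℕ), by omega⟩ + σ d * w ⟨2 * (i : ℕ) + 1, by omega⟩ := fun d => by
        rw [hB]
        simp [uVec, Pi.single_apply, apply_ite σ, add_mul, mul_add, Finset.sum_add_distrib, mul_comm]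
      have h1 : sesqOfFun hf (uVec n c i) w = 0 := P.B_e_mid i y
      have h2 : sesqOfFun hf ((1 + σ c * (c * (σ x / x)))⁻¹ • uVec n (c * (σ x / x)) i) w = 0 :=
        P.B_f_mid i y
      have hA : (1 : F) + σ c * (c * (σ x / x)) ≠ 0 := fun h => by
        have : (σ x / x : F) = 1 := by
          change σ c * c = -1 at hc
          linear_combination -h + (σ x / x) * hc
        exact hne (by rw [this, mul_one])
      rw [hs] at h1
      rw [LinearMap.map_smulₛₗ, LinearMap.smul_apply, hs, smul_eq_mul, mul_eq_zero] at h2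
      have h2' := h2.resolve_left fun h0 => hA (inv_eq_zero.1 ((map_eq_zero_iff σ σ.injective).1 h0))
      have h3 : (σ (c * (σ x / x)) - σ c) * w ⟨2 * (i : ℕ) + 1, by omega⟩ = 0 := by
        linear_combination h2' - h1
      have h4 := (mul_eq_zero.1 h3).resolve_left (sub_ne_zero.2 (σ.injective.ne hne))
      rcases Nat.mod_two_eq_zero_or_one (j : ℕ) with h | h
      · rw [show j = (⟨2 * (i : ℕ), by omega⟩ : Fin n) from Fin.ext (by simp only [i]; omega)]
        linear_combination h1 - σ c * h4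
      · rw [show j = (⟨2 * (i : ℕ) + 1, by omega⟩ : Fin n) from Fin.ext (by simp only [i]; omega)]
        exact h4
    by_cases hodd : 2 * (n / 2) < n
    · refine ⟨w ⟨_, hodd⟩, funext fun j => ?_⟩
      by_cases hj : (j : ℕ) = 2 * (n / 2)
      · simp [z, hj, show j = (⟨_, hodd⟩ : Fin n) from Fin.ext hj]
      · simp [z, hj, hz j hj]
    · refine ⟨0, funext fun j => ?_⟩
      rw [zero_smul, Pi.zero_apply, hz j (by omega)]
  have hfam : P.FamFixed N := P.famFixed_of_ker N (a := x - σ x) (sub_ne_zero.2 (Ne.symm hx)) (by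
    show (x - σ x) + σ (x - σ x) = 0
    rw [map_sub, hf.involutive]; ring)
  let φ : Cfsg.SU n F q →* N :=
    { toFun := fun A => ⟨⟨Matrix.toLin'OfInv
            (M := ((A.1⁻¹ : Matrix.SpecialLinearGroup (Fin n) F) : Matrix (Fin n) (Fin n) F))
            (M' := (A.1 : Matrix (Fin n) (Fin n) F))
            (by rw [← Matrix.SpecialLinearGroup.coe_mul, inv_mul_cancel,
              Matrix.SpecialLinearGroup.coe_one])
            (by rw [← Matrix.SpecialLinearGroup.coe_mul, mul_inv_cancel,
              Matrix.SpecialLinearGroup.coe_one]),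
          fun u v => A.2 v u, fun v => A.2 v v⟩, by
          rw [hN]
          show LinearMap.det (Matrix.toLin' (A.1 : Matrix (Fin n) (Fin n) F)) = 1
          rw [LinearMap.det_toLin', A.1.2]⟩
      map_one' := Subtype.ext (Subtype.ext (LinearEquiv.ext fun y => Matrix.one_mulVec y))
      map_mul' := fun A B => Subtype.ext (Subtype.ext (LinearEquiv.ext fun y => (Matrix.mulVec_mulVec y
        (A.1 : Matrix (Fin n) (Fin n) F) _).symm)) }
  have hφ : Function.Bijective φ := by
    refine ⟨fun A B h => ?_, fun g => ?_⟩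
    · refine Subtype.ext (Subtype.ext (Matrix.ext_of_mulVec_single fun i => ?_))
      exact congrArg (fun g : N => ((g : P.isoGrp) : (Fin n → F) ≃ₗ[F] (Fin n → F)) (Pi.single i 1)) h
    · let A : Matrix.SpecialLinearGroup (Fin n) F :=
        ⟨LinearMap.toMatrix' ((g : P.isoGrp) : (Fin n → F) ≃ₗ[F] (Fin n → F)).toLinearMap,
          (LinearMap.det_toMatrix' _).trans ((hN g.1).1 g.2)⟩
      have hA : ∀ y, (A : Matrix (Fin n) (Fin n) F) *ᵥ y =
          ((g : P.isoGrp) : (Fin n → F) ≃ₗ[F] (Fin n → F)) y := fun y =>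
        LinearMap.toMatrix'_mulVec _ _
      refine ⟨⟨A, fun u v => ?_⟩, Subtype.ext (Subtype.ext (LinearEquiv.ext fun y => hA y))⟩
      show Cfsg.hermForm n F q ((A : Matrix (Fin n) (Fin n) F) *ᵥ u) _ = _
      rw [hA]
      erw [hA]
      exact g.1.2.1 v u
  exact P.good_of_radical (fun h => absurd h hσ') N hUN hmid hfam
    (f := (QuotientGroup.mk' (Subgroup.center (Cfsg.SU n F q))).comp
      (MulEquiv.ofBijective φ hφ).symm.toMonoidHom)
    ((QuotientGroup.mk'_surjective _).comp (MulEquiv.surjective _))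

section Orth

variable [Finite F] {m : ℕ}

theorem orth_good [CharP F 2] {ι : Type} [Fintype ι] [DecidableEq ι] {Q : (ι → F) → F}
    {P : Polar (RingHom.id F) (ι → F) F m} (h : IsOrthPolar Q P) (hUN : P.U ≤ h.omega)
    (hmid : P.MidTrivial 2 h.omega) (hfam : P.FamFixed h.omega) : Good (Cfsg.POmega F Q) :=
  P.good_of_radical (fun _ v => by rw [h.B_self, CharTwo.two_eq_zero, zero_mul]) h.omega hUN hmid hfam
    (f := (QuotientGroup.mk' _).comp
      ((Cfsg.Omega F Q).equivMapOfInjective h.equiv.toMonoidHom h.equiv.injective).symm.toMonoidHom)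
    ((QuotientGroup.mk'_surjective _).comp (MulEquiv.surjective _))

theorem plus_good [CharP F 2] (hm : 3 ≤ m) : Good (Cfsg.POmega F (Cfsg.quadFormPlus m F)) := by
  classical
  have hQ : IsNondegenerateQuadraticForm (Cfsg.quadFormPlus m F) :=
    isNondegenerateQuadraticForm_quadFormPlus m
  let e : Fin m → Fin m ⊕ Fin m → F := fun i => Pi.single (.inl i) 1
  let f : Fin m → Fin m ⊕ Fin m → F := fun i => Pi.single (.inr i) 1
  have hFe : ∀ (i : Fin m) v, QuadraticMap.polar (Cfsg.quadFormPlus m F) (e i) v = v (.inr i) := by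
    intro i v; simp [polar_plus, e, Pi.single_apply]
  have hFf : ∀ (i : Fin m) v, QuadraticMap.polar (Cfsg.quadFormPlus m F) (f i) v = v (.inl i) := by
    intro i v; simp [polar_plus, f, Pi.single_apply]
  have hcoord : ∀ v : Fin m ⊕ Fin m → F, (∀ i, QuadraticMap.polar (Cfsg.quadFormPlus m F) (e i) v = 0) →
      (∀ i, QuadraticMap.polar (Cfsg.quadFormPlus m F) (f i) v = 0) → v = 0 := by
    intro v he hf
    funext j
    rcases j with j | j
    · simpa [hFf] using hf j
    · simpa [hFe] using he j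
  let P := orthPolar hQ e f (fun i j => by rw [hFe]; simp [e]) (fun i j => by rw [hFf]; simp [f])
    (fun i j => by rw [hFe]; simp [f, Pi.single_apply]) (fun i => by simp [e, Cfsg.quadFormPlus])
    (fun i => by simp [f, Cfsg.quadFormPlus]) (fun v he hf _ => hcoord v he hf)
  have h : IsOrthPolar (Cfsg.quadFormPlus m F) P := isOrthPolar hQ e f _ _ _ _ _ _
  have hmid : ∀ x, P.mid x = 0 := fun x =>
    hcoord _ (fun i => P.B_e_mid i x) (fun i => P.B_f_mid i x)
  have hMax : IsMaxTS (Cfsg.quadFormPlus m F) (P.low m) :=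
    ⟨fun x hx => (P.isTS_low m x hx).1,
      by rw [P.finrank_low le_rfl, Fintype.card_sum, Fintype.card_fin]; ring⟩
  refine orth_good h (h.U_le_omega fun k => Or.inr (Or.inl (by
      rw [Fintype.card_sum, Fintype.card_fin]; omega)))
    (P.midTrivial_of_span 2 _ 0 fun x => by rw [hmid]; exact Submodule.zero_mem _) ?_
  rintro - - g ⟨g₀, hg₀, rfl⟩ hfix
  by_contra hne
  have hg : ((g₀ : GL (Fin m ⊕ Fin m) F)) ∈ omegaGL (Cfsg.quadFormPlus m F) := ⟨g₀, hg₀, rfl⟩
  have hev := omega_preserves_class hQ hMax hg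
  have himg : imgSub (g₀ : GL (Fin m ⊕ Fin m) F) (P.low m) = P.mapSub (h.equiv g₀) (P.low m) := by
    ext x
    rw [mem_imgSub]
    exact ⟨fun ⟨y, hy, hyx⟩ => ⟨y, hy, hyx⟩, fun ⟨y, hy, hyx⟩ => ⟨y, hy, hyx⟩⟩
  rw [himg] at hev
  set W := P.mapSub (h.equiv g₀) (P.low m) with hW
  have hlow : P.low (m - 1) ≤ P.low m ⊓ W := by
    refine le_inf (Polar.first_mono _ (Nat.sub_le m 1)) ?_
    rw [← hfix]
    exact Submodule.map_mono (Polar.first_mono _ (Nat.sub_le m 1))
  have hlt : P.low m ⊓ W < P.low m := lt_of_le_of_ne inf_le_left fun heq => hne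
    (Submodule.eq_of_le_of_finrank_eq (inf_eq_left.1 heq)
      (LinearEquiv.finrank_map_eq _ _).symm).symm
  have h1 := Submodule.finrank_mono hlow
  have h2 := Submodule.finrank_lt_finrank_of_lt hlt
  rw [P.finrank_low (Nat.sub_le m 1)] at h1
  rw [P.finrank_low le_rfl] at h2 hev
  rw [Nat.even_iff] at hev
  omega

theorem minus_good [CharP F 2] (hm : 2 ≤ m) (a b : F)
    (hab : ∀ z₁ z₂ : F, z₁ ^ 2 + a * z₁ * z₂ + b * z₂ ^ 2 = 0 → z₁ = 0 ∧ z₂ = 0) :
    Good (Cfsg.POmega F (Cfsg.quadFormMinus m F a b)) := by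
  classical
  haveI := Fintype.ofFinite F
  have hQ : IsNondegenerateQuadraticForm (Cfsg.quadFormMinus m F a b) :=
    isNondegenerateQuadraticForm_quadFormMinus m a b (discr_ne_zero_of_anisotropic a b hab)
  let e : Fin m → (Fin m ⊕ Fin m) ⊕ Fin 2 → F := fun i => Pi.single (.inl (.inl i)) 1
  let f : Fin m → (Fin m ⊕ Fin m) ⊕ Fin 2 → F := fun i => Pi.single (.inl (.inr i)) 1
  let z : Fin 2 → (Fin m ⊕ Fin m) ⊕ Fin 2 → F := fun i => Pi.single (.inr i) 1
  have hFe : ∀ (i : Fin m) v,
      QuadraticMap.polar (Cfsg.quadFormMinus m F a b) (e i) v = v (.inl (.inr i)) := by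
    intro i v; simp [polar_minus, e, Pi.single_apply]
  have hFf : ∀ (i : Fin m) v,
      QuadraticMap.polar (Cfsg.quadFormMinus m F a b) (f i) v = v (.inl (.inl i)) := by
    intro i v; simp [polar_minus, f, Pi.single_apply]
  let P := orthPolar hQ e f (fun i j => by rw [hFe]; simp [e]) (fun i j => by rw [hFf]; simp [f])
    (fun i j => by rw [hFe]; simp [f, Pi.single_apply]) (fun i => by simp [e, Cfsg.quadFormMinus])
    (fun i => by simp [f, Cfsg.quadFormMinus]) (fun v he hf hv => by
      have hz1 : ∀ i, v (.inl (.inl i)) = 0 := fun i => (hFf i v).symm.trans (hf i)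
      have hz2 : ∀ i, v (.inl (.inr i)) = 0 := fun i => (hFe i v).symm.trans (he i)
      have h3 := hab (v (.inr 0)) (v (.inr 1)) (by simpa [Cfsg.quadFormMinus, hz1] using hv)
      funext j
      rcases j with (j | j) | j
      · exact hz1 j
      · exact hz2 j
      · fin_cases j
        · exact h3.1
        · exact h3.2)
  have h : IsOrthPolar (Cfsg.quadFormMinus m F a b) P := isOrthPolar hQ e f _ _ _ _ _ _
  have hz0 : ∀ k, P.mid (z k) = z k := fun k => by
    rw [P.mid_apply]
    have h1 : ∀ i, P.cE i (z k) = 0 := fun i => by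
      rw [P.cE_eq_zero_iff]; exact (hFf i _).trans (by simp [z])
    have h2 : ∀ i, P.cF i (z k) = 0 := fun i => (hFe i _).trans (by simp [z])
    simp [h1, h2]
  have hM : finrank F (LinearMap.range P.mid) ≤ 2 := by
    have hle : LinearMap.range P.mid ≤ Submodule.span F (Set.range z) := by
      rintro _ ⟨x, rfl⟩
      refine (Submodule.mem_span_range_iff_exists_fun F).2
        ⟨fun k => P.mid x (.inr k), funext fun j => ?_⟩
      rcases j with (j | j) | j
      · have := (hFf j (P.mid x)).symm.trans (P.B_f_mid j x)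
        simp [z, this]
      · have := (hFe j (P.mid x)).symm.trans (P.B_e_mid j x)
        simp [z, this]
      · simp [z, Pi.single_apply]
    exact (Submodule.finrank_mono hle).trans ((finrank_range_le_card z).trans (by simp))
  refine orth_good h (h.U_le_omega fun k => Or.inr (Or.inl (by
      simp only [Fintype.card_sum, Fintype.card_fin]; omega))) ?_
    (P.famFixed_of_mid _ (z := z 0) ?_)
  swap
  · rw [hz0]; exact fun h0 => one_ne_zero (α := F) (by simpa [z] using congrFun h0 (.inr 0))
  refine midTrivial_plane h 2 hM (Or.inr ?_)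
  rintro g ⟨g₀, hg₀, rfl⟩ h1
  have hev := (CfsgLib.Classical.Orth.mem_omega_iff_even hQ CharTwo.two_eq_zero
    (by simp only [Fintype.card_sum, Fintype.card_fin]; omega) g₀).1 hg₀
  have hr : CfsgLib.Classical.Orth.residual (g₀ : GL _ F) =
      LinearMap.range (P.lin (h.equiv g₀) - LinearMap.id) := by
    rw [← LinearMap.range_neg]
    refine congrArg LinearMap.range (LinearMap.ext fun x => ?_)
    simp [Matrix.sub_mulVec, h.equiv_apply]
  rw [hr] at hev
  change finrank F (LinearMap.range (P.lin (h.equiv g₀) - LinearMap.id)) = 1 at h1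
  erw [h1] at hev
  exact Nat.not_even_one hev

end Orth

end CfsgLib.SylowSquares
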