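import Cfsg.Agent.SylowSquares.Basic
import Cfsg.Agent.TwistedLie.E6Order
import Cfsg.Agent.TwistedLie.D4Facts
import Cfsg.Agent.TwistedLie.F4Facts

/-!
Twisted groups in characteristic two: squares of fixed positive unipotent elements are products of
commutators of such elements.
-/

set_option autoImplicit false

namespace CfsgLib.SylowSquares

open Cfsg.Lie CfsgLib.Chevalley CfsgLib.TwistedLie

open scoped commutatorElement

section

variable {D : ChevalleyDatum} {S : Sys D} {F : Type*} [Field F] {ι : Type} (E : Tw S F ι)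

theorem conj_flip_mem {L : List ι} {i : ι} {a : Fin D.rank} (ha : a ∈ E.blk i)
    (hneg : (E.wW L (S.simpleF a) : ℕ) < D.nroots / 2) {v : GL D.Idx F}
    (hv : v ∈ E.flipFix (L ++ [i])) :
    (S.wN F (E.blk i) : GL D.Idx F)⁻¹ * v * (S.wN F (E.blk i) : GL D.Idx F) ∈ E.flipFix L := by
  set M : GL D.Idx F := (S.wN F (E.blk i) : GL D.Idx F) with hM
  obtain ⟨hv1, hv2⟩ := (E.mem_flipFix).mp hv
  refine (E.mem_flipFix).mpr ⟨?_, ?_⟩
  · have hle : uSub D F (S.flipSet F (E.nW (L ++ [i]))) ≤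
        (uSub D F (S.flipSet F (E.nW L))).comap (MulAut.conj M⁻¹).toMonoidHom := by
      refine S.uSub_le F fun r hr hr1 hr2 t => ?_
      obtain ⟨h, hf⟩ := hr
      obtain ⟨c, -, hct⟩ := S.conj_root F (S.wN F (E.blk i))⁻¹ ⟨r, h⟩
      rw [Subgroup.mem_comap, MulEquiv.coe_toMonoidHom, MulAut.conj_apply,
        show S.xG F r t = S.xG F ((⟨r, h⟩ : Fin D.nroots) : ℕ) t from rfl]
      simp only [Subgroup.coe_inv] at hct
      rw [← hM] at hct
      rw [(hct t).1]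
      have hf' : D.nroots / 2 ≤ ((⟨r, h⟩ : Fin D.nroots) : ℕ) ∧
          (E.wW (L ++ [i]) ⟨r, h⟩ : ℕ) < D.nroots / 2 :=
        ⟨hr1, by rw [E.perm_nW] at hf; exact hf⟩
      have hsq := fun v => show S.wperm (E.blk i) (S.wperm (E.blk i) v) = v by
        rw [← Equiv.Perm.mul_apply, E.wperm_blk_sq, Equiv.Perm.one_apply]
      have hs := (E.flip_step ha hneg (S.wperm (E.blk i) ⟨r, h⟩)).mpr
        (Or.inr (by rw [hsq]; exact hf'))
      rw [map_inv, S.perm_wN, E.wperm_blk_inv]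
      refine S.xG_mem_uSub F (P := S.flipSet F (E.nW L)) ⟨Fin.isLt _, ?_⟩ hs.1 (Fin.isLt _) _
      rw [Fin.eta, E.perm_nW]
      exact hs.2
    have := hle hv1
    rwa [Subgroup.mem_comap, MulEquiv.coe_toMonoidHom, MulAut.conj_apply, inv_inv] at this
  · have hMg : M ∈ D.group F := E.G_mem_group (hM ▸ E.n_mem i)
    have hvg : v ∈ D.group F := E.uSub_mem_group hv1
    rw [E.σ_mul _ (mul_mem (inv_mem hMg) hvg) _ hMg, E.σ_mul _ (inv_mem hMg) _ hvg,
      E.σ_inv hMg, hM, E.σ_mem (E.n_mem i), hv2]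

theorem X_le_flipFix {L : List ι} {i : ι} {a : Fin D.rank} (ha : a ∈ E.blk i)
    (hneg : (E.wW L (S.simpleF a) : ℕ) < D.nroots / 2) : E.X i ≤ E.flipFix L := by
  intro x hx
  refine (E.mem_flipFix).mpr ⟨(S.uSub_le F fun r hr h1 h2 t => S.xG_mem_uSub F
    (P := S.flipSet F (E.nW L)) ⟨h2, ?_⟩ h1 h2 t) (E.X_le i hx), E.σ_mem (E.X_mem i hx)⟩
  rw [E.perm_nW]
  exact ((E.flip_step ha hneg ⟨r, h2⟩).mpr (Or.inl ⟨h1, hr⟩)).2

theorem flipFix_sqC (hX : ∀ i, SqC (E.X i)) (L : List ι) : SqC (E.flipFix L) := by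
  induction hk : (invSet (E.wW L)).card using Nat.strong_induction_on generalizing L with
  | _ k ih =>
    intro u hu
    by_cases h0 : ∃ s, s ∈ invSet (E.wW L)
    · obtain ⟨i, a, ha, hneg⟩ := E.exists_flip L h0
      obtain ⟨v, hv, x, hx, rfl⟩ := E.flipFix_split ha hneg hu
      set M : GL D.Idx F := (S.wN F (E.blk i) : GL D.Idx F) with hM
      have hlt : (invSet (E.wW (L ++ [i]))).card < k := by
        have := E.flip_card_step ha hneg
        have := E.blk_inv_pos i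
        omega
      have hle : (E.flipFix (L ++ [i])).map (MulAut.conj M⁻¹).toMonoidHom ≤ E.flipFix L := by
        rintro _ ⟨w, hw, rfl⟩
        rw [MulEquiv.coe_toMonoidHom, MulAut.conj_apply, inv_inv]
        exact conj_flip_mem E ha hneg hw
      have hv' : M⁻¹ * v * M * (M⁻¹ * v * M) ∈ ⁅E.flipFix L, E.flipFix L⁆ := by
        have h1 := (ih _ hlt _ rfl).map (MulAut.conj M⁻¹).toMonoidHom (M⁻¹ * v * M)
          ⟨v, hv, by rw [MulEquiv.coe_toMonoidHom, MulAut.conj_apply, inv_inv]⟩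
        exact Subgroup.commutator_mono hle hle h1
      have hxle := X_le_flipFix E ha hneg
      exact sq_mul (conj_flip_mem E ha hneg hv) (hxle hx) hv'
        (Subgroup.commutator_mono hxle hxle (hX i x hx))
    · have hu1 := ((E.mem_flipFix).mp hu).1
      have hbot : uSub D F (S.flipSet F (E.nW L)) = ⊥ := uSub_empty_of fun r hr hp => by
        obtain ⟨h, hf⟩ := hr
        rw [E.perm_nW] at hf
        exact h0 ⟨⟨r, h⟩, mem_invSet.mpr ⟨((S.pos_iff r).mp hp).1, hf⟩⟩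
      rw [hbot, Subgroup.mem_bot] at hu1
      rw [hu1, mul_one]; exact one_mem _

theorem famGroup_sqC [CharP F 2] {G : Type*} [Group G] {P : F → G}
    {hadd : ∀ t u, P t * P u = P (t + u)} {A : AddSubgroup F} :
    SqC (famGroup F P hadd A) := by
  intro x hx
  obtain ⟨t, -, rfl⟩ := hx
  have h0 : P 0 = 1 := by
    have := hadd 0 0
    rw [add_zero] at this
    exact mul_eq_left.mp this
  rw [hadd, CharTwo.add_self_eq_zero, h0]
  exact one_mem _

end

theorem charP_two_of_even {K : Type*} [Field K] [Fintype K] [CharP K 2] {q k : ℕ}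
    (hq : IsPrimePow q) (hK : Fintype.card K = q ^ k) : ∃ f, 0 < f ∧ q = 2 ^ f := by
  obtain ⟨p, f, hp, hf, rfl⟩ := hq
  refine ⟨f, hf, ?_⟩
  obtain ⟨n, -, hn⟩ := FiniteField.card K 2
  have h2 : 2 ∣ (p ^ f) ^ k := hK ▸ hn ▸ dvd_pow_self 2 n.ne_zero
  have := (Nat.prime_dvd_prime_iff_eq Nat.prime_two (Nat.prime_iff.mpr hp)).1
    (Nat.prime_two.dvd_of_dvd_pow (Nat.prime_two.dvd_of_dvd_pow h2))
  rw [← this]

theorem not_two_dvd_sub {q i : ℕ} (hq : Even q) (h0 : 0 < q) (hi : i ≠ 0) : ¬ 2 ∣ q ^ i - 1 := by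
  have h1 : Even (q ^ i) := Nat.even_pow.mpr ⟨hq, hi⟩
  have h2 : 0 < q ^ i := pow_pos h0 i
  rw [Nat.even_iff] at h1
  omega

theorem not_two_dvd_add {q i : ℕ} (hq : Even q) (hi : i ≠ 0) : ¬ 2 ∣ q ^ i + 1 := by
  have h1 : Even (q ^ i) := Nat.even_pow.mpr ⟨hq, hi⟩
  rw [Nat.even_iff] at h1
  omega

theorem not_dvd_mul_two {a b : ℕ} (ha : ¬ 2 ∣ a) (hb : ¬ 2 ∣ b) : ¬ 2 ∣ a * b :=
  Nat.prime_two.not_dvd_mul ha hb

/-- A twisted group is good when the fixed root groups are. -/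
theorem twisted_good {D : ChevalleyDatum} {S : Sys D} {K : Type*} [Field K] [Fintype K] {ι : Type}
    (E : Tw S K ι) (hX : ∀ i, SqC (E.X i)) {L₀ : List ι}
    (hL₀ : ∀ s : Fin D.nroots, D.nroots / 2 ≤ (s : ℕ) → (E.wW L₀ s : ℕ) < D.nroots / 2)
    {e d B : ℕ} (hU : Nat.card ↥(D.posUnipotent K ⊓ E.G) = 2 ^ e) (hB : ¬ 2 ∣ B)
    (hord : d * Nat.card E.G = 2 ^ e * B) : Good E.G :=
  Good.of_order (U := D.posUnipotent K ⊓ E.G) inf_le_right
    (E.U1_eq hL₀ ▸ flipFix_sqC E hX L₀) hU hB (hU.symm ▸ hord)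

theorem e6_good {K : Type*} [Field K] [Fintype K] [CharP K 2] {q : ℕ} (hq : IsPrimePow q)
    (hK : Fintype.card K = q ^ 2) : Good (Cfsg.Lie.twistedE6 K q) := by
  obtain ⟨f, hf, hqf⟩ := charP_two_of_even hq hK
  have he : Even q := hqf ▸ Nat.even_pow.mpr ⟨even_two, hf.ne'⟩
  have h0 : 0 < q := hq.pos
  refine twisted_good (E6.tw hq hK) ?_ (L₀ := E6.longWord) ?_ (e := f * 36) (d := Nat.gcd 3 (q + 1))
    (B := (q ^ 2 - 1) * ((q ^ 5 + 1) * ((q ^ 6 - 1) * ((q ^ 8 - 1) * ((q ^ 9 + 1) * (q ^ 12 - 1))))))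
    ?_ ?_ ?_
  · refine fun i => ?_
    show SqC (E6.XX hq hK i)
    revert i
    exact E6.forall4 (famGroup_sqC (hadd := fun t u => Sys.xG_add sysE6 K (chevE6.simple 1) t u))
      (famGroup_sqC (hadd := fun t u => Sys.xG_add sysE6 K (chevE6.simple 3) t u))
      (famGroup_sqC (hadd := Folded.P_add sysE6 (E6.phi hq hK) E6.two24))
      (famGroup_sqC (hadd := Folded.P_add sysE6 (E6.phi hq hK) E6.two05))
  · intro s hs
    show (Sys.wperm sysE6 (E6.longWord.flatMap E6.blkF) s : ℕ) < _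
    rw [E6.wperm_flat]
    exact E6.long_neg (s : ℕ) s.isLt hs
  · rw [E6.card_U hq hK, pow_mul, ← hqf]
  · exact not_dvd_mul_two (not_two_dvd_sub he h0 (by omega)) (not_dvd_mul_two
      (not_two_dvd_add he (by omega)) (not_dvd_mul_two (not_two_dvd_sub he h0 (by omega))
      (not_dvd_mul_two (not_two_dvd_sub he h0 (by omega)) (not_dvd_mul_two
      (not_two_dvd_add he (by omega)) (not_two_dvd_sub he h0 (by omega))))))
  · rw [E6.card_group hq hK, pow_mul, ← hqf]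
    simp only [mul_assoc]

theorem d4_good {K : Type*} [Field K] [Fintype K] [CharP K 2] {q : ℕ} (hq : IsPrimePow q)
    (hK : Fintype.card K = q ^ 3) : Good (Cfsg.Lie.twistedD4 K q) := by
  obtain ⟨f, hf, hqf⟩ := charP_two_of_even hq hK
  have he : Even q := hqf ▸ Nat.even_pow.mpr ⟨even_two, hf.ne'⟩
  have h0 : 0 < q := hq.pos
  refine twisted_good (D4.tw hq hK) ?_ (L₀ := [0, 1, 0, 1, 0, 1]) ?_ (e := f * 12) (d := 1)
    (B := (q ^ 2 - 1) * ((q ^ 6 - 1) * (q ^ 8 + q ^ 4 + 1))) ?_ ?_ ?_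
  · exact Fin.forall_fin_two.mpr ⟨famGroup_sqC (hadd := D4.P_comm hq hK),
      famGroup_sqC (hadd := fun t u => Sys.xG_add sysD4 K 14 t u)⟩
  · intro s hs
    show (Sys.wperm sysD4 (([0, 1, 0, 1, 0, 1] : List (Fin 2)).flatMap D4.blkF) s : ℕ) < _
    rw [D4.wperm_flat]
    exact (by decide +kernel : ∀ s : Fin chevD4.nroots, chevD4.nroots / 2 ≤ (s : ℕ) →
      wL chevD4 (D4.wdN [0, 1, 0, 1, 0, 1]) (s : ℕ) < chevD4.nroots / 2) s hs
  · rw [D4.card_U hq hK, pow_mul, ← hqf]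
  · refine not_dvd_mul_two (not_two_dvd_sub he h0 (by omega))
      (not_dvd_mul_two (not_two_dvd_sub he h0 (by omega)) ?_)
    have h8 : Even (q ^ 8) := Nat.even_pow.mpr ⟨he, by omega⟩
    have h4 : Even (q ^ 4) := Nat.even_pow.mpr ⟨he, by omega⟩
    rw [Nat.even_iff] at h8 h4
    omega
  · rw [one_mul, D4.card_group hq hK, pow_mul, ← hqf]
    simp only [mul_assoc]

end CfsgLib.SylowSquares
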